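import Cfsg.Agent.H183.E8F.NAct
import Cfsg.Agent.H576.E8L.Io

/-!
# S5925, box F2: the action of `N` in the coordinates `io` (helper183)
-/

set_option autoImplicit false

namespace Cfsg.Agent.H183.E8F

open Matrix Cfsg Cfsg.Lie Cfsg.Agent.ChevalleyStructure Cfsg.Agent.ChevalleyStructure.Elts
open Cfsg.Agent.ChevalleyStructure.SparseEng
open Cfsg.Agent.H992.E8X Cfsg.Agent.H238.E8
open Cfsg.Agent.H138.E8L Cfsg.Agent.H576.E8L

variable {K : Type*} [Field K]

theorem wr0 (i j : Fin 5) : wr 0 i j = w0 i j := by revert i j; decide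
theorem wr1 (i j : Fin 5) : wr 1 i j = w1 i j := by revert i j; decide
theorem ws0 (i j : Fin 5) : ws 0 i j = s0 i j := by revert i j; decide
theorem ws1 (i j : Fin 5) : ws 1 i j = s1 i j := by revert i j; decide

theorem ev_cE_eq (t : Fin 2) (i j : Fin 5) :
    ev chevE8 K (cE t i j 1) 1 1 = (ws t i j : K) • rv K (wr t i j) := by
  simp only [cE, ev_cons, ev_nil, add_zero, Term.ev, rv]
  congr 1
  push_cast
  ring

theorem ev_range (f : ℕ → ℤ) (n : ℕ) (row : chevE8.Idx) :
    ev chevE8 K ((List.range n).map fun k => (⟨k, f k, 0, 0⟩ : Term)) 1 1 row =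
      ∑ k ∈ Finset.range n, (f k : K) * bvec chevE8 K k row := by
  induction n with
  | zero => simp [ev]
  | succ n ih =>
    rw [List.range_succ, List.map_append, ev_append, Pi.add_apply, ih, Finset.sum_range_succ]
    congr 1
    simp [ev, Term.ev]

theorem ev_cH_eq (t : Fin 2) (a : Fin 4) :
    ev chevE8 K (cH t a 1) 1 1 = hv K (wr t a.castSucc a.succ) := by
  funext row
  unfold cH
  rw [ev_range (fun k => 1 * (chevE8.coroot.getD (wr t a.castSucc a.succ) #[]).getD k 0) 8 row]
  rcases row with i | u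
  · have hi : i.val < 8 := i.isLt
    rw [Finset.sum_eq_single i.val]
    · simp only [bvec, if_true, mul_one, one_mul]
      rfl
    · intro k _ hk
      simp only [bvec, if_neg (Ne.symm hk), mul_zero]
    · intro h
      exact absurd (Finset.mem_range.2 hi) h
  · rw [hv_inr]
    apply Finset.sum_eq_zero
    intro k hk
    have hk' := Finset.mem_range.1 hk
    have : chevE8.rank + u.val ≠ k := by
      have : chevE8.rank = 8 := rfl
      omega
    simp only [bvec, if_neg this, mul_zero]

theorem ps_off {i j : Fin 5} (h : i ≠ j) (b : Fin 4) : ps (Matrix.single i j (1 : K)) b = 0 := by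
  unfold ps
  apply Finset.sum_eq_zero
  intro c _
  split_ifs
  · rw [Matrix.single_apply, if_neg]
    rintro ⟨rfl, rfl⟩
    exact h rfl
  · rfl

theorem ps_diag (a b : Fin 4) : ps (Matrix.single a.castSucc a.castSucc (1 : K) - Matrix.single a.succ a.succ 1) b =
    if b = a then 1 else 0 := by
  unfold ps
  have : ∀ c : Fin 5, (if c ≤ b.castSucc then
      (Matrix.single a.castSucc a.castSucc (1 : K) - Matrix.single a.succ a.succ 1 : Matrix (Fin 5) (Fin 5) K) c c
        else 0) =
      (((if c ≤ b.castSucc then (if a.castSucc = c then 1 else 0) - (if a.succ = c then 1 else 0) else 0 : ℤ)) : K) := by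
    intro c
    rw [Matrix.sub_apply, Matrix.single_apply, Matrix.single_apply]
    simp only [and_self]
    split_ifs <;> simp
  rw [Finset.sum_congr rfl fun c _ => this c, ← Int.cast_sum]
  have h : ∀ a b : Fin 4, ∑ c : Fin 5, (if c ≤ b.castSucc then
      (if a.castSucc = c then (1 : ℤ) else 0) - (if a.succ = c then 1 else 0) else 0) = if b = a then 1 else 0 := by
    decide
  rw [h]
  split_ifs <;> simp

theorem WM_off (w : Fin 5 → Fin 5 → ℕ) (s : Fin 5 → Fin 5 → ℤ) {i j : Fin 5} (h : i ≠ j) :
    WM K w s (Matrix.single i j 1) = (s i j : K) • rv K (w i j) := by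
  rw [WM_apply, Finset.sum_eq_zero (s := (Finset.univ : Finset (Fin 4))) (fun b _ => by rw [ps_off h, zero_smul]),
    add_zero, Finset.sum_eq_single i, Finset.sum_eq_single j]
  · rw [if_neg h, Matrix.single_apply, if_pos ⟨rfl, rfl⟩, mul_one]
  · intro b _ hb
    rw [Matrix.single_apply, if_neg (c := i = i ∧ j = b) (fun hh => hb hh.2.symm), mul_zero, zero_smul, ite_self]
  · intro hh
    exact absurd (Finset.mem_univ _) hh
  · intro b _ hb
    apply Finset.sum_eq_zero
    intro c _
    rw [Matrix.single_apply, if_neg (c := i = b ∧ j = c) (fun hh => hb hh.1.symm), mul_zero, zero_smul, ite_self]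
  · intro hh
    exact absurd (Finset.mem_univ _) hh

theorem WM_diag (w : Fin 5 → Fin 5 → ℕ) (s : Fin 5 → Fin 5 → ℤ) (a : Fin 4) :
    WM K w s (Matrix.single a.castSucc a.castSucc 1 - Matrix.single a.succ a.succ 1) =
      hv K (w a.castSucc a.succ) := by
  rw [WM_apply, Finset.sum_eq_zero (s := (Finset.univ : Finset (Fin 5))), zero_add, Finset.sum_eq_single a, ps_diag,
    if_pos rfl, one_smul]
  · intro b _ hb
    rw [ps_diag, if_neg hb, zero_smul]
  · intro hh
    exact absurd (Finset.mem_univ _) hh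
  · intro i _
    apply Finset.sum_eq_zero
    intro j _
    split_ifs with h
    · rfl
    · rw [Matrix.sub_apply, Matrix.single_apply, Matrix.single_apply, if_neg (fun hh => h (hh.1.symm.trans hh.2)),
        if_neg (fun hh => h (hh.1.symm.trans hh.2)), sub_zero, mul_zero, zero_smul]

/-- **the action of `N = φ₁(P) φ₂(P)` on `sl(W0) + sl(W1)`** -/
theorem N_act (A0 A1 : Matrix (Fin 5) (Fin 5) K) (h0 : A0.trace = 0) (h1 : A1.trace = 0) :
    (((NN K : ↥(chevE8.group K)) : GL chevE8.Idx K) : Matrix chevE8.Idx chevE8.Idx K) *ᵥ io K (A0, A1) =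
      io K (-(M1 * A1ᵀ * M1ᵀ), M0 * A0 * M0ᵀ) := by
  refine N_act_of (io K) ?_ ?_ ?_ ?_ A0 A1 h0 h1
  · intro i j h
    rw [io_apply, ev_cE_eq, wr0, ws0]
    simp only [WM_off w0 s0 h, map_zero, add_zero]
  · intro i j h
    rw [io_apply, ev_cE_eq, wr1, ws1]
    simp only [WM_off w1 s1 h, map_zero, zero_add]
  · intro a
    rw [io_apply, ev_cH_eq, wr0]
    simp only [WM_diag w0 s0 a, map_zero, add_zero]
  · intro a
    rw [io_apply, ev_cH_eq, wr1]
    simp only [WM_diag w1 s1 a, map_zero, zero_add]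

end Cfsg.Agent.H183.E8F
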